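import Mathlib
import Cfsg.Agent.Lib.Helper18.LSDefs

/-!
# S2333 piece LS-UADD (helper18's project): `uS` is additive
-/

set_option autoImplicit false

namespace Cfsg.Agent.Lib.Helper18.LS

open Matrix

universe u

variable {F : Type u} [Field F] {n : ℕ}

theorem uS_add {S T : Matrix (Fin n) (Fin n) F} (hS : S.IsSymm) (hT : T.IsSymm) :
    uS (S + T) = uS S * uS T := by
  apply Subtype.ext
  rw [uS_coe (Matrix.IsSymm.add hS hT)]
  show _ = ((uS S : symplecticGroup (Fin n) F) : Matrix (Fin n ⊕ Fin n) (Fin n ⊕ Fin n) F) *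
    ((uS T : symplecticGroup (Fin n) F) : Matrix (Fin n ⊕ Fin n) (Fin n ⊕ Fin n) F)
  rw [uS_coe hS, uS_coe hT, fromBlocks_multiply]
  simp [add_comm]

theorem uS_zero : uS (0 : Matrix (Fin n) (Fin n) F) = 1 := by
  apply Subtype.ext
  rw [uS_coe Matrix.isSymm_zero]
  show _ = (1 : Matrix (Fin n ⊕ Fin n) (Fin n ⊕ Fin n) F)
  exact fromBlocks_one

end Cfsg.Agent.Lib.Helper18.LS
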