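import Mathlib
import Cfsg.Agent.Lib.Helper18.SLMDefs

/-! Project SLM (S2332, helper18), piece X1ADD: `x1` is additive. -/

set_option autoImplicit false

namespace Cfsg.Agent.Lib.Helper18.SLM

open Matrix

universe u

variable {F : Type u} [Field F] [Fintype F]

theorem x1add_cons {k : ℕ} (u v : Fin k → F) :
    (Fin.cons 0 (u + v) : Fin (k + 1) → F) = Fin.cons 0 u + Fin.cons 0 v := by
  funext i
  refine Fin.cases ?_ (fun i' => ?_) i
  · simp
  · simp

theorem x1add_cons_zero {k : ℕ} :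
    (Fin.cons 0 (0 : Fin k → F) : Fin (k + 1) → F) = 0 := by
  funext i
  refine Fin.cases ?_ (fun i' => ?_) i
  · simp
  · simp

theorem x1add_aux {k : ℕ} (A B : Matrix (Fin (k + 1)) (Fin (k + 1)) F) (hAB : A * B = 0) :
    1 + (A + B) = (1 + A) * (1 + B) := by
  rw [add_mul, mul_add, mul_add, hAB]
  simp only [one_mul, mul_one, add_zero]
  abel

-- piece X1ADD
theorem x1_add {k : ℕ} (u v : Fin k → F) :
    (x1 (u + v) : Matrix.SpecialLinearGroup (Fin (k + 1)) F) = x1 u * x1 v := by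
  apply Subtype.ext
  rw [Matrix.SpecialLinearGroup.coe_mul, x1_val, x1_val, x1_val, x1add_cons, Matrix.vecMulVec_add]
  apply x1add_aux
  rw [Matrix.vecMulVec_mul_vecMulVec]
  simp

theorem x1_zero {k : ℕ} : (x1 (0 : Fin k → F) : Matrix.SpecialLinearGroup (Fin (k + 1)) F) = 1 := by
  apply Subtype.ext
  rw [x1_val, x1add_cons_zero, Matrix.vecMulVec_zero, add_zero]
  rfl

end Cfsg.Agent.Lib.Helper18.SLM
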