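import Mathlib
import Cfsg.Agent.Lib.Helper18.LSDefs
import Cfsg.Agent.Lib.Helper18.WRDefs

/-!
# Project WR (helper18, S2347), piece TRIVS
-/

set_option autoImplicit false

namespace Cfsg.Agent.Lib.Helper18.WR

open Matrix

universe u

variable {F : Type u} [Field F] {n : ℕ}

-- piece TRIVS
theorem triv_orbit {E V : Type*} [AddCommGroup E] [Module ℂ E] [AddCommGroup V]
    (W : V → Module.End ℂ E) (P : Module.End ℂ E) (hPW : ∀ v, P * W v = W (-v) * P)
    (A : Module.End ℂ E) (γ : V ≃+ V) (hA : ∀ v, A * W v = W (γ v) * A)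
    (htriv : A * (1 - P) = 1 - P) (v : V) :
    (W (γ v) + W (-(γ v))) * (1 - P) = (W v + W (-v)) * (1 - P) := by
  have hPS : P * (W v + W (-v)) = (W v + W (-v)) * P := by
    rw [mul_add, hPW v, hPW (-v), neg_neg, add_mul, add_comm]
  have hS : (1 - P) * (W v + W (-v)) = (W v + W (-v)) * (1 - P) := by
    rw [sub_mul, one_mul, hPS, mul_sub, mul_one]
  calc (W (γ v) + W (-(γ v))) * (1 - P)
      = (W (γ v) + W (γ (-v))) * (A * (1 - P)) := by rw [htriv, map_neg]
    _ = (W (γ v) * A + W (γ (-v)) * A) * (1 - P) := by rw [← mul_assoc, add_mul]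
    _ = (A * W v + A * W (-v)) * (1 - P) := by rw [← hA v, ← hA (-v)]
    _ = A * ((W v + W (-v)) * (1 - P)) := by rw [← mul_add, mul_assoc]
    _ = A * ((1 - P) * (W v + W (-v))) := by rw [hS]
    _ = (A * (1 - P)) * (W v + W (-v)) := by rw [mul_assoc]
    _ = (1 - P) * (W v + W (-v)) := by rw [htriv]
    _ = (W v + W (-v)) * (1 - P) := hS

end Cfsg.Agent.Lib.Helper18.WR
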