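import Mathlib
import Cfsg.Agent.Lib.Helper80.CTDefs

set_option autoImplicit false

/-!
Piece AVG of S5748 (architect helper80): if the total number of involutions is `N.index * (q - 1)`
and every coset of `N` containing an involution outside `N` has at most `q - 1` involutions, then
every coset `N g` with `g ∉ N` has exactly `q - 1` involutions.
-/

namespace Cfsg.Agent.Lib.Helper39.CTAVG

open Cfsg.Agent.Lib.Helper80.CT

variable {G : Type*} [Group G] [Finite G]
variable {A N : Subgroup G} {q : ℕ}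

/-- piece AVG -/
theorem card_invol_coset_eq (hD : Data G A N q)
    (htot : Nat.card {v : G // orderOf v = 2} = N.index * (q - 1))
    (hloc : ∀ u : G, orderOf u = 2 → u ∉ N →
      Nat.card {v : G // orderOf v = 2 ∧ v * u⁻¹ ∈ N} ≤ q - 1) :
    ∀ g : G, g ∉ N → Nat.card {v : G // orderOf v = 2 ∧ v * g⁻¹ ∈ N} = q - 1 := by
  classical
  haveI : Fintype (G ⧸ N) := Fintype.ofFinite _
  -- every coset has at most `q - 1` involutions
  have hle : ∀ g : G, Nat.card {v : G // orderOf v = 2 ∧ v * g⁻¹ ∈ N} ≤ q - 1 := by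
    intro g
    by_cases hg : g ∈ N
    · have e : {v : G // orderOf v = 2 ∧ v * g⁻¹ ∈ N} ≃ {x : G // x ∈ A ∧ orderOf x = 2} :=
        Equiv.subtypeEquivRight (fun v => by
          constructor
          · rintro ⟨h1, h2⟩
            have h3 : v ∈ N := by
              have h4 : v = v * g⁻¹ * g := by group
              rw [h4]; exact mul_mem h2 hg
            exact ⟨hD.invol_mem h1 h3, h1⟩
          · rintro ⟨h1, h2⟩
            exact ⟨h2, mul_mem (hD.le h1) (inv_mem hg)⟩)
      rw [Nat.card_congr e, hD.card_invol]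
    · by_cases hex : ∃ u : G, orderOf u = 2 ∧ u * g⁻¹ ∈ N
      · obtain ⟨u, hu2, hug⟩ := hex
        have huN : u ∉ N := by
          intro h
          apply hg
          have h4 : g = (u * g⁻¹)⁻¹ * u := by group
          rw [h4]; exact mul_mem (inv_mem hug) h
        have e : {v : G // orderOf v = 2 ∧ v * g⁻¹ ∈ N} ≃
            {v : G // orderOf v = 2 ∧ v * u⁻¹ ∈ N} :=
          Equiv.subtypeEquivRight (fun v => by
            constructor
            · rintro ⟨h1, h2⟩
              refine ⟨h1, ?_⟩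
              have h4 : v * u⁻¹ = v * g⁻¹ * (u * g⁻¹)⁻¹ := by group
              rw [h4]; exact mul_mem h2 (inv_mem hug)
            · rintro ⟨h1, h2⟩
              refine ⟨h1, ?_⟩
              have h4 : v * g⁻¹ = v * u⁻¹ * (u * g⁻¹) := by group
              rw [h4]; exact mul_mem h2 hug)
        rw [Nat.card_congr e]
        exact hloc u hu2 huN
      · have : IsEmpty {v : G // orderOf v = 2 ∧ v * g⁻¹ ∈ N} := ⟨fun v => hex ⟨v.1, v.2⟩⟩
        rw [Nat.card_of_isEmpty]
        exact Nat.zero_le _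
  -- the fibres of `v ↦ v⁻¹ N`
  let c : {v : G // orderOf v = 2} → G ⧸ N := fun v => ((v.1⁻¹ : G) : G ⧸ N)
  have hfib : ∀ g : G, Nat.card {v : {v : G // orderOf v = 2} // c v = ((g⁻¹ : G) : G ⧸ N)} =
      Nat.card {v : G // orderOf v = 2 ∧ v * g⁻¹ ∈ N} := by
    intro g
    refine Nat.card_congr ((Equiv.subtypeSubtypeEquivSubtypeInter (fun v : G => orderOf v = 2)
      (fun v : G => ((v⁻¹ : G) : G ⧸ N) = ((g⁻¹ : G) : G ⧸ N))).trans
      (Equiv.subtypeEquivRight ?_))
    intro v
    show (orderOf v = 2 ∧ ((v⁻¹ : G) : G ⧸ N) = ((g⁻¹ : G) : G ⧸ N)) ↔ _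
    rw [QuotientGroup.eq, inv_inv]
  have hfle : ∀ κ : G ⧸ N, Nat.card {v : {v : G // orderOf v = 2} // c v = κ} ≤ q - 1 := by
    intro κ
    obtain ⟨k, rfl⟩ := QuotientGroup.mk_surjective κ
    rw [← inv_inv k, hfib k⁻¹]
    exact hle _
  have hsum : ∑ κ : G ⧸ N, Nat.card {v : {v : G // orderOf v = 2} // c v = κ} =
      N.index * (q - 1) := by
    rw [← htot, ← Nat.card_sigma]
    exact Nat.card_congr (Equiv.sigmaFiberEquiv c)
  have hall : ∀ κ : G ⧸ N, Nat.card {v : {v : G // orderOf v = 2} // c v = κ} = q - 1 := by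
    by_contra hcon
    obtain ⟨κ₀, hκ₀⟩ := not_forall.mp hcon
    have hlt : ∑ κ : G ⧸ N, Nat.card {v : {v : G // orderOf v = 2} // c v = κ} <
        ∑ _κ : G ⧸ N, (q - 1) :=
      Finset.sum_lt_sum (fun κ _ => hfle κ)
        ⟨κ₀, Finset.mem_univ _, lt_of_le_of_ne (hfle κ₀) hκ₀⟩
    rw [hsum, Finset.sum_const, Finset.card_univ, smul_eq_mul, ← Nat.card_eq_fintype_card,
      ← Subgroup.index_eq_card] at hlt
    exact lt_irrefl _ hlt
  intro g _
  rw [← hfib g]
  exact hall _

end Cfsg.Agent.Lib.Helper39.CTAVG
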