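import Mathlib
import Cfsg.Agent.Lib.Helper80.CTDefs

set_option autoImplicit false

/-!
Piece CNTA of S5748 (architect helper80): counting the pairs `(v, w)` of distinct involutions in
the same coset of `N`, `v ∉ N`, by the first coordinate.
-/

namespace Cfsg.Agent.Lib.Helper39.CTCNTA

open Cfsg.Agent.Lib.Helper80.CT

theorem card_sigma_const {α : Type*} [Finite α] {β : α → Type*} [∀ a, Finite (β a)] (k : ℕ)
    (h : ∀ a, Nat.card (β a) = k) : Nat.card (Sigma β) = Nat.card α * k := by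
  classical
  have := Fintype.ofFinite α
  rw [Nat.card_sigma, Finset.sum_congr rfl (fun a _ => h a), Finset.sum_const, Finset.card_univ,
    smul_eq_mul, Nat.card_eq_fintype_card]

theorem card_subtype_ne {α : Type*} [Finite α] (a : α) :
    Nat.card {b : α // b ≠ a} + 1 = Nat.card α := by
  classical
  have := Fintype.ofFinite α
  rw [Nat.card_eq_fintype_card, Nat.card_eq_fintype_card, ← Fintype.card_option]
  exact Fintype.card_congr (Equiv.optionSubtypeNe a)

theorem card_subtype_split {α : Type*} [Finite α] (p r : α → Prop) :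
    Nat.card {a : α // p a} = Nat.card {a : α // p a ∧ r a} + Nat.card {a : α // p a ∧ ¬ r a} := by
  classical
  have e1 : {a : α // p a} ≃ {b : {a : α // p a} // r b.1} ⊕ {b : {a : α // p a} // ¬ r b.1} :=
    (Equiv.sumCompl (fun b : {a : α // p a} => r b.1)).symm
  rw [Nat.card_congr e1, Nat.card_sum,
    Nat.card_congr (Equiv.subtypeSubtypeEquivSubtypeInter p r),
    Nat.card_congr (Equiv.subtypeSubtypeEquivSubtypeInter p (fun a => ¬ r a))]

variable {G : Type*} [Group G] [Finite G]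
variable {A N : Subgroup G} {q : ℕ}

/-- piece CNTA -/
theorem card_pairs_left (hD : Data G A N q)
    (htot : Nat.card {v : G // orderOf v = 2} = N.index * (q - 1))
    (hcnt : ∀ g : G, g ∉ N → Nat.card {v : G // orderOf v = 2 ∧ v * g⁻¹ ∈ N} = q - 1) :
    Nat.card {p : G × G // orderOf p.1 = 2 ∧ p.1 ∉ N ∧ orderOf p.2 = 2 ∧ p.2 ≠ p.1 ∧
        p.2 * p.1⁻¹ ∈ N} = (N.index - 1) * (q - 1) * (q - 2) := by
  classical
  -- the involutions outside `N`
  have hV : Nat.card {v : G // orderOf v = 2 ∧ v ∉ N} = (N.index - 1) * (q - 1) := by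
    have h1 := card_subtype_split (fun v : G => orderOf v = 2) (fun v : G => v ∈ N)
    have e : {v : G // orderOf v = 2 ∧ v ∈ N} ≃ {x : G // x ∈ A ∧ orderOf x = 2} :=
      Equiv.subtypeEquivRight (fun v => by
        constructor
        · rintro ⟨h1, h2⟩
          exact ⟨hD.invol_mem h1 h2, h1⟩
        · rintro ⟨h1, h2⟩
          exact ⟨h2, hD.le h1⟩)
    rw [htot, Nat.card_congr e, hD.card_invol] at h1
    rw [Nat.sub_one_mul]
    omega
  -- the fibres
  have hW : ∀ v : {v : G // orderOf v = 2 ∧ v ∉ N},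
      Nat.card {w : G // orderOf w = 2 ∧ w ≠ v.1 ∧ w * v.1⁻¹ ∈ N} = q - 2 := by
    intro v
    have h1 := hcnt v.1 v.2.2
    have hv : orderOf v.1 = 2 ∧ v.1 * v.1⁻¹ ∈ N := ⟨v.2.1, by rw [mul_inv_cancel]; exact one_mem N⟩
    have h2 := card_subtype_ne (⟨v.1, hv⟩ : {w : G // orderOf w = 2 ∧ w * v.1⁻¹ ∈ N})
    have e' : {b : {w : G // orderOf w = 2 ∧ w * v.1⁻¹ ∈ N} // b ≠ ⟨v.1, hv⟩} ≃
        {b : {w : G // orderOf w = 2 ∧ w * v.1⁻¹ ∈ N} // b.1 ≠ v.1} :=
      Equiv.subtypeEquivRight (fun b => by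
        constructor
        · intro h3 h4
          exact h3 (Subtype.ext h4)
        · intro h3 h4
          exact h3 (congrArg Subtype.val h4))
    rw [Nat.card_congr e', h1] at h2
    have h5 : Nat.card {b : {w : G // orderOf w = 2 ∧ w * v.1⁻¹ ∈ N} // b.1 ≠ v.1} =
        Nat.card {w : G // orderOf w = 2 ∧ w ≠ v.1 ∧ w * v.1⁻¹ ∈ N} :=
      Nat.card_congr ((Equiv.subtypeSubtypeEquivSubtypeInter
        (fun w : G => orderOf w = 2 ∧ w * v.1⁻¹ ∈ N) (fun w : G => w ≠ v.1)).trans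
        (Equiv.subtypeEquivRight (fun w => by
          constructor
          · rintro ⟨⟨h1, h2⟩, h3⟩
            exact ⟨h1, h3, h2⟩
          · rintro ⟨h1, h3, h2⟩
            exact ⟨⟨h1, h2⟩, h3⟩)))
    rw [← h5]
    omega
  -- the pairs as a sigma type
  have eT : {p : G × G // orderOf p.1 = 2 ∧ p.1 ∉ N ∧ orderOf p.2 = 2 ∧ p.2 ≠ p.1 ∧
        p.2 * p.1⁻¹ ∈ N} ≃
      (Σ v : {v : G // orderOf v = 2 ∧ v ∉ N},
        {w : G // orderOf w = 2 ∧ w ≠ v.1 ∧ w * v.1⁻¹ ∈ N}) :=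
    { toFun := fun p => ⟨⟨p.1.1, p.2.1, p.2.2.1⟩, ⟨p.1.2, p.2.2.2.1, p.2.2.2.2.1, p.2.2.2.2.2⟩⟩
      invFun := fun s => ⟨(s.1.1, s.2.1), s.1.2.1, s.1.2.2, s.2.2.1, s.2.2.2.1, s.2.2.2.2⟩
      left_inv := fun p => rfl
      right_inv := fun s => rfl }
  rw [Nat.card_congr eT, card_sigma_const (q - 2) hW, hV]

end Cfsg.Agent.Lib.Helper39.CTCNTA
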