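import Mathlib
import Cfsg.Agent.Lib.Helper80.CTDefs
import Cfsg.Agent.Lib.Helper39.CTCNTA

set_option autoImplicit false

/-!
Piece CNTB of S5748 (architect helper80): counting the pairs `(v, w)` of distinct involutions in
the same coset of `N`, `v ∉ N`, through `(v, w) ↦ (w v⁻¹, v)`.
-/

namespace Cfsg.Agent.Lib.Helper39.CTCNTB

open Cfsg.Agent.Lib.Helper80.CT Cfsg.Agent.Lib.Helper39.CTCNTA

variable {G : Type*} [Group G] [Finite G]

theorem sq_of_order_two {v : G} (hv : orderOf v = 2) : v * v = 1 := by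
  have h := pow_orderOf_eq_one v
  rwa [hv, pow_two] at h

theorem inv_of_order_two {v : G} (hv : orderOf v = 2) : v⁻¹ = v :=
  inv_eq_of_mul_eq_one_left (sq_of_order_two hv)

theorem ne_one_of_order_two {v : G} (hv : orderOf v = 2) : v ≠ 1 := by
  intro h
  rw [h, orderOf_one] at hv
  omega

theorem order_two_of_sq {v : G} (h1 : v * v = 1) (h2 : v ≠ 1) : orderOf v = 2 := by
  have : Fact (Nat.Prime 2) := ⟨Nat.prime_two⟩
  apply orderOf_eq_prime _ h2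
  rw [pow_two]; exact h1

variable {A N : Subgroup G} {q : ℕ}

/-- piece CNTB -/
theorem card_pairs_right (hD : Data G A N q)
    (hinv : ∀ h ∈ N, h ∉ A →
      Nat.card {w : G // orderOf w = 2 ∧ w * h * w⁻¹ = h⁻¹ ∧ w ∉ N} = q - 1) :
    Nat.card {p : G × G // orderOf p.1 = 2 ∧ p.1 ∉ N ∧ orderOf p.2 = 2 ∧ p.2 ≠ p.1 ∧
        p.2 * p.1⁻¹ ∈ N} = Nat.card A * (q - 2) * (q - 1) := by
  classical
  -- the change of coordinates `(v, w) ↦ (w v⁻¹, v)`
  let e : G × G ≃ G × G :=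
    { toFun := fun p => (p.2 * p.1⁻¹, p.1)
      invFun := fun r => (r.2, r.1 * r.2)
      left_inv := fun p => by simp
      right_inv := fun r => by simp }
  have e1 : {p : G × G // orderOf p.1 = 2 ∧ p.1 ∉ N ∧ orderOf p.2 = 2 ∧ p.2 ≠ p.1 ∧
        p.2 * p.1⁻¹ ∈ N} ≃
      {r : G × G // r.1 ∈ N ∧ r.1 ∉ A ∧ orderOf r.2 = 2 ∧ r.2 * r.1 * r.2⁻¹ = r.1⁻¹ ∧ r.2 ∉ N} := by
    refine Equiv.subtypeEquiv e ?_
    rintro ⟨v, w⟩
    show (orderOf v = 2 ∧ v ∉ N ∧ orderOf w = 2 ∧ w ≠ v ∧ w * v⁻¹ ∈ N) ↔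
      (w * v⁻¹ ∈ N ∧ w * v⁻¹ ∉ A ∧ orderOf v = 2 ∧ v * (w * v⁻¹) * v⁻¹ = (w * v⁻¹)⁻¹ ∧ v ∉ N)
    constructor
    · rintro ⟨hv2, hvN, hw2, hne, hmem⟩
      have hvi := inv_of_order_two hv2
      have hwi := inv_of_order_two hw2
      have hconj : v * (w * v⁻¹) * v⁻¹ = (w * v⁻¹)⁻¹ := by
        rw [mul_inv_rev, inv_inv, hwi, hvi]
        calc v * (w * v) * v = v * w * (v * v) := by group
          _ = v * w := by rw [sq_of_order_two hv2, mul_one]
      refine ⟨hmem, ?_, hv2, hconj, hvN⟩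
      intro hA
      have h1 : v * (w * v⁻¹) * v⁻¹ ∈ A := by rw [hconj]; exact inv_mem hA
      have h2 := hD.ti hvN hA h1
      apply hne
      have h3 : w = w * v⁻¹ * v := by group
      rw [h3, h2, one_mul]
    · rintro ⟨hmem, hnA, hv2, hconj, hvN⟩
      have hvi := inv_of_order_two hv2
      have hwv : w ≠ v := by
        intro h
        apply hnA
        rw [h, mul_inv_cancel]
        exact one_mem A
      have hww : w * w = 1 := by
        have h1 : w * v⁻¹ * (v * (w * v⁻¹) * v⁻¹) = 1 := by rw [hconj, mul_inv_cancel]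
        have h2 : w * v⁻¹ * (v * (w * v⁻¹) * v⁻¹) = w * w * (v * v)⁻¹ := by group
        rw [h2, sq_of_order_two hv2, inv_one, mul_one] at h1
        exact h1
      have hw1 : w ≠ 1 := by
        intro h
        apply hvN
        rw [h, one_mul] at hmem
        have h3 := inv_mem hmem
        rwa [inv_inv] at h3
      exact ⟨hv2, hvN, order_two_of_sq hww hw1, hwv, hmem⟩
  have e2 : {r : G × G // r.1 ∈ N ∧ r.1 ∉ A ∧ orderOf r.2 = 2 ∧ r.2 * r.1 * r.2⁻¹ = r.1⁻¹ ∧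
        r.2 ∉ N} ≃
      (Σ h : {h : G // h ∈ N ∧ h ∉ A},
        {w : G // orderOf w = 2 ∧ w * h.1 * w⁻¹ = h.1⁻¹ ∧ w ∉ N}) :=
    { toFun := fun r => ⟨⟨r.1.1, r.2.1, r.2.2.1⟩, ⟨r.1.2, r.2.2.2.1, r.2.2.2.2.1, r.2.2.2.2.2⟩⟩
      invFun := fun s => ⟨(s.1.1, s.2.1), s.1.2.1, s.1.2.2, s.2.2.1, s.2.2.2.1, s.2.2.2.2⟩
      left_inv := fun r => rfl
      right_inv := fun s => rfl }
  have hcardH : Nat.card {h : G // h ∈ N ∧ h ∉ A} = Nat.card A * (q - 2) := by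
    have h1 := card_subtype_split (fun h : G => h ∈ N) (fun h : G => h ∈ A)
    have e3 : {h : G // h ∈ N ∧ h ∈ A} ≃ {h : G // h ∈ A} :=
      Equiv.subtypeEquivRight (fun h => ⟨fun h2 => h2.2, fun h2 => ⟨hD.le h2, h2⟩⟩)
    rw [Nat.card_congr e3] at h1
    have h2 : Nat.card {h : G // h ∈ N} = Nat.card A * (q - 1) := hD.card_N
    have h3 : Nat.card {h : G // h ∈ A} = Nat.card A := rfl
    have h4 := hD.four_le
    have h5 : q - 1 = (q - 2) + 1 := by omega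
    rw [h2, h3, h5, Nat.mul_add, Nat.mul_one] at h1
    omega
  have h7 := card_sigma_const
    (β := fun h : {h : G // h ∈ N ∧ h ∉ A} =>
      {w : G // orderOf w = 2 ∧ w * h.1 * w⁻¹ = h.1⁻¹ ∧ w ∉ N}) (q - 1)
    (fun h => hinv h.1 h.2.1 h.2.2)
  rw [Nat.card_congr (e1.trans e2), h7, hcardH]

end Cfsg.Agent.Lib.Helper39.CTCNTB
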