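import Mathlib
import Cfsg.Agent.Lib.Helper80.CTDefs

set_option autoImplicit false

/-!
Piece TOT of S5748 (architect helper80): the number of involutions of a group with the local data
`Data G A N q` is `N.index * (q - 1)`.
-/

namespace Cfsg.Agent.Lib.Helper39.CTTOT

open Cfsg.Agent.Lib.Helper80.CT

variable {G : Type*} [Group G] [Finite G]

theorem orderOf_conj_aux (g x : G) : orderOf (g * x * g⁻¹) = orderOf x := by
  have h := MulEquiv.orderOf_eq (MulAut.conj g) x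
  rwa [MulAut.conj_apply] at h

theorem orderOf_conj_aux' (g x : G) : orderOf (g⁻¹ * x * g) = orderOf x := by
  have h := orderOf_conj_aux g⁻¹ x
  rwa [inv_inv] at h

variable {A N : Subgroup G} {q : ℕ}

/-- piece TOT -/
theorem card_invol_total (hD : Data G A N q) :
    Nat.card {v : G // orderOf v = 2} = N.index * (q - 1) := by
  classical
  have hrep : ∀ v : {v : G // orderOf v = 2}, ∃ g : G, g * v.1 * g⁻¹ ∈ A :=
    fun v => hD.invol v.1 v.2
  choose rep hrepA using hrep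
  let Ψ : {v : G // orderOf v = 2} × N → G × {x : G // x ∈ A ∧ orderOf x = 2} := fun p =>
    ((rep p.1)⁻¹ * (p.2 : G),
      ⟨(p.2 : G)⁻¹ * (rep p.1 * p.1.1 * (rep p.1)⁻¹) * (p.2 : G),
        hD.conj_mem' p.2.2 (hrepA p.1), by
          rw [orderOf_conj_aux', orderOf_conj_aux]; exact p.1.2⟩)
  have hΦ : ∀ p : {v : G // orderOf v = 2} × N,
      (Ψ p).1 * ((Ψ p).2 : G) * (Ψ p).1⁻¹ = p.1.1 := by
    intro p
    show (rep p.1)⁻¹ * (p.2 : G) * ((p.2 : G)⁻¹ * (rep p.1 * p.1.1 * (rep p.1)⁻¹) * (p.2 : G)) *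
      ((rep p.1)⁻¹ * (p.2 : G))⁻¹ = p.1.1
    group
  have hinj : Function.Injective Ψ := by
    intro p p' hpp
    have h1 : p.1.1 = p'.1.1 := by rw [← hΦ p, ← hΦ p', hpp]
    have h2 : p.1 = p'.1 := Subtype.ext h1
    have h3 : (rep p.1)⁻¹ * (p.2 : G) = (rep p'.1)⁻¹ * (p'.2 : G) := congrArg Prod.fst hpp
    rw [h2] at h3
    have h4 : (p.2 : G) = (p'.2 : G) := mul_left_cancel h3
    exact Prod.ext h2 (Subtype.ext h4)
  have hsurj : Function.Surjective Ψ := by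
    rintro ⟨g, ⟨s, hsA, hs2⟩⟩
    have hv2 : orderOf (g * s * g⁻¹) = 2 := by rw [orderOf_conj_aux]; exact hs2
    have hs1 : s ≠ 1 := by
      intro h
      rw [h, orderOf_one] at hs2
      omega
    have hm : rep ⟨g * s * g⁻¹, hv2⟩ * g ∈ N := by
      by_contra hm
      apply hs1
      apply hD.ti hm hsA
      have h1 := hrepA ⟨g * s * g⁻¹, hv2⟩
      have h2 : rep ⟨g * s * g⁻¹, hv2⟩ * g * s * (rep ⟨g * s * g⁻¹, hv2⟩ * g)⁻¹ =
          rep ⟨g * s * g⁻¹, hv2⟩ * (g * s * g⁻¹) * (rep ⟨g * s * g⁻¹, hv2⟩)⁻¹ := by group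
      rw [h2]
      exact h1
    refine ⟨(⟨g * s * g⁻¹, hv2⟩, ⟨rep ⟨g * s * g⁻¹, hv2⟩ * g, hm⟩), ?_⟩
    apply Prod.ext
    · show (rep ⟨g * s * g⁻¹, hv2⟩)⁻¹ * (rep ⟨g * s * g⁻¹, hv2⟩ * g) = g
      group
    · apply Subtype.ext
      show (rep ⟨g * s * g⁻¹, hv2⟩ * g)⁻¹ *
        (rep ⟨g * s * g⁻¹, hv2⟩ * (g * s * g⁻¹) * (rep ⟨g * s * g⁻¹, hv2⟩)⁻¹) *
          (rep ⟨g * s * g⁻¹, hv2⟩ * g) = s
      group
  have hcard := Nat.card_congr (Equiv.ofBijective Ψ ⟨hinj, hsurj⟩)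
  rw [Nat.card_prod, Nat.card_prod, hD.card_invol, ← Subgroup.index_mul_card N] at hcard
  have hpos : 0 < Nat.card N := Nat.card_pos
  have h5 : Nat.card {v : G // orderOf v = 2} * Nat.card N = N.index * (q - 1) * Nat.card N := by
    rw [hcard]; ring
  exact Nat.eq_of_mul_eq_mul_right hpos h5

end Cfsg.Agent.Lib.Helper39.CTTOT
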