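import Cfsg.Agent.Lib.Helper39.SuzEData

set_option maxRecDepth 100000
set_option maxHeartbeats 0

namespace Cfsg.Agent.Lib.Helper39.SuzE
open Cfsg.Agent.Lib.Helper38 

theorem chkV_0 : allFrom 0 500 cert.chkV = true := by decide +kernel
theorem chkV_1 : allFrom 500 357 cert.chkV = true := by decide +kernel

theorem chkV_f0 : allFrom 0 857 cert.chkV = true :=
  (allFrom_join (lo := 0) (a := 500) (b := 357) chkV_0 chkV_1)

end Cfsg.Agent.Lib.Helper39.SuzE
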