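import Cfsg.Agent.Lib.Helper39.SuzXOO0
import Cfsg.Agent.Lib.Helper39.SuzXOO1
import Cfsg.Agent.Lib.Helper39.SuzXOO2
import Cfsg.Agent.Lib.Helper39.SuzXOO3
import Cfsg.Agent.Lib.Helper39.SuzXOO4
import Cfsg.Agent.Lib.Helper39.SuzXOO5

set_option maxRecDepth 100000
set_option maxHeartbeats 0

namespace Cfsg.Agent.Lib.Helper39.SuzXO
open Cfsg.Agent.Lib.Helper38 

theorem chkO_all : ∀ v < 22880, Cfsg.Agent.Lib.Helper38.Suz22880.cert.chkO v = true := by
  have h : allFrom 0 22880 Cfsg.Agent.Lib.Helper38.Suz22880.cert.chkO = true :=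
    (allFrom_join (lo := 0) (a := 20000) (b := 2880) (allFrom_join (lo := 0) (a := 16000) (b := 4000) (allFrom_join (lo := 0) (a := 12000) (b := 4000) (allFrom_join (lo := 0) (a := 8000) (b := 4000) (allFrom_join (lo := 0) (a := 4000) (b := 4000) chkO_f0 chkO_f1) chkO_f2) chkO_f3) chkO_f4) chkO_f5)
  intro v hv
  exact allFrom_iff.mp h v (Nat.zero_le _) (by omega)

end Cfsg.Agent.Lib.Helper39.SuzXO
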