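import Cfsg.Agent.S1680
import Cfsg.Agent.S1681
import Cfsg.Agent.Lib.Helper39.OrdMax
import Cfsg.Agent.Lib.Helper39.SuzOrdData
import Cfsg.Agent.Lib.Helper39.SuzFV
import Cfsg.Agent.Lib.Helper39.SuzFN
import Cfsg.Agent.Lib.Helper39.SuzEV
import Cfsg.Agent.Lib.Helper39.SuzEN
import Cfsg.Agent.Lib.Helper39.SuzDV
import Cfsg.Agent.Lib.Helper39.SuzDN
import Cfsg.Agent.Lib.Helper39.SuzXOO

/-!
The presented sporadic Suzuki group is simple of order 448345497600.

* upper bound for the order: the chain `G > ⟨a..f⟩ > ⟨a..e⟩ > ⟨a..d⟩ > 1` of coset enumerations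
  (indices 1782, 416, 280, 2160) in the sub-presentations;
* lower bound: orbits of the subgroups `⟨s < k⟩` on the cosets of `⟨a..f⟩` (1782 points) and of
  `⟨a,b,c,d,f,g⟩` (22880 points); the seven base points then detect the identity;
* simplicity: Iwasawa's criterion for the maximal subgroup `⟨a,b,c,d,f,g⟩`, which normalises a
  subgroup of order 3 whose conjugates generate the group.
-/

set_option maxRecDepth 100000
set_option maxHeartbeats 0
set_option linter.unusedSimpArgs false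
set_option linter.unusedVariables false

namespace Cfsg.Agent.Lib.Helper39.SuzOrd

open Cfsg.Agent.Lib.Helper38 Cfsg.Agent.Lib.Helper39.Ord

/-- the presented group -/
abbrev G : Type := PresentedGroup SuzP.rels

/-- the generators -/
noncomputable abbrev γ : ℕ → G := fun s => PresentedGroup.of (SuzP.gen s)

/-- the subgroup `⟨a, …, f⟩` -/
abbrev H1 : Subgroup G :=
  (Subgroup.closure Cfsg.Agent.S1680.S).map (PresentedGroup.mk SuzP.rels)

/-- the subgroup `⟨a, b, c, d, f, g⟩` -/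
abbrev H2 : Subgroup G :=
  (Subgroup.closure Cfsg.Agent.S1681.S).map (PresentedGroup.mk SuzP.rels)

theorem hP1 : Cert.Pres Suz1782.cert γ H1 := Cfsg.Agent.S1680.hP
theorem hC1 : Cert.Checks Suz1782.cert := Cfsg.Agent.S1680.hC
theorem hO1 : Cert.OChecks Suz1782.cert := Cfsg.Agent.S1680.hO
theorem hP2 : Cert.Pres Suz22880.cert γ H2 := Cfsg.Agent.S1681.hP
theorem hC2 : Cert.Checks Suz22880.cert := Cfsg.Agent.S1681.hC
theorem chkRoots2 : Suz22880.cert.chkRoots = true := by decide +kernel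
theorem hO2 : Cert.OChecks Suz22880.cert := ⟨SuzXO.chkO_all, chkRoots2⟩

/-! ### The upper bound -/

theorem wordsD : (List.range SuzD.cert.nrel).map SuzD.cert.wordL = W4 := by decide +kernel
theorem wordsE : (List.range SuzE.cert.nrel).map SuzE.cert.wordL = W5 := by decide +kernel
theorem wordsF : (List.range SuzF.cert.nrel).map SuzF.cert.wordL = W6 := by decide +kernel

theorem chkGD : SuzD.cert.chkG = true := by decide +kernel
theorem chkGE : SuzE.cert.chkG = true := by decide +kernel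
theorem chkGF : SuzF.cert.chkG = true := by decide +kernel

theorem hPD : Cert.Pres SuzD.cert (WP.gen SuzD.cert.g W4) (SuzD.cert.subgp (WP.gen SuzD.cert.g W4)) :=
  WP.pres SuzD.cert W4 wordsD SuzD.chkN_all
theorem hCD : Cert.Checks SuzD.cert := ⟨SuzD.chkV_all, SuzD.chkN_all, chkGD⟩
theorem hPE : Cert.Pres SuzE.cert (WP.gen SuzE.cert.g W5) (SuzE.cert.subgp (WP.gen SuzE.cert.g W5)) :=
  WP.pres SuzE.cert W5 wordsE SuzE.chkN_all
theorem hCE : Cert.Checks SuzE.cert := ⟨SuzE.chkV_all, SuzE.chkN_all, chkGE⟩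
theorem hPF : Cert.Pres SuzF.cert (WP.gen SuzF.cert.g W6) (SuzF.cert.subgp (WP.gen SuzF.cert.g W6)) :=
  WP.pres SuzF.cert W6 wordsF SuzF.chkN_all
theorem hCF : Cert.Checks SuzF.cert := ⟨SuzF.chkV_all, SuzF.chkN_all, chkGF⟩

theorem act_ge (k : ℕ) : ∀ s, k ≤ s → (fun s => decide (s < k)) s = false := by
  intro s hs
  simpa using hs

theorem cardD : Finite (WP 4 W4) ∧ Nat.card (WP 4 W4) = 2160 := ub_bot hPD hCD (by decide)

theorem okE : ∀ w ∈ W4, okw W5 (fun s => decide (s < 4)) w = true := by decide +kernel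
theorem okF : ∀ w ∈ W5, okw W6 (fun s => decide (s < 5)) w = true := by decide +kernel
theorem okG : ∀ w ∈ W6, okw SuzP.words (fun s => decide (s < 6)) w = true := by decide +kernel

theorem subE : allFrom SuzE.cert.nsub (Nat.sub SuzE.cert.nw SuzE.cert.nsub)
    (fun wid => (SuzE.cert.wordL wid).all (fun s => decide (s < 4))) = true := by decide +kernel
theorem subF : allFrom SuzF.cert.nsub (Nat.sub SuzF.cert.nw SuzF.cert.nsub)
    (fun wid => (SuzF.cert.wordL wid).all (fun s => decide (s < 5))) = true := by decide +kernel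
theorem subG : allFrom Suz1782.cert.nsub (Nat.sub Suz1782.cert.nw Suz1782.cert.nsub)
    (fun wid => (Suz1782.cert.wordL wid).all (fun s => decide (s < 6))) = true := by decide +kernel

theorem cardE : Finite (WP 5 W5) ∧ Nat.card (WP 5 W5) ≤ 280 * 2160 := by
  haveI : Finite (WP 4 W4) := cardD.1
  have h := ub_step hPE hCE W5 (fun w hw => WP.gen_word 5 W5 hw) 4 W4 (fun s => decide (s < 4))
    (act_ge 4) okE (Cert.hsub_of subE)
  refine ⟨h.1, ?_⟩
  have h2 := h.2
  rw [cardD.2] at h2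
  exact h2

theorem cardF : Finite (WP 6 W6) ∧ Nat.card (WP 6 W6) ≤ 416 * (280 * 2160) := by
  haveI : Finite (WP 5 W5) := cardE.1
  have h := ub_step hPF hCF W6 (fun w hw => WP.gen_word 6 W6 hw) 5 W5 (fun s => decide (s < 5))
    (act_ge 5) okF (Cert.hsub_of subF)
  refine ⟨h.1, h.2.trans ?_⟩
  exact Nat.mul_le_mul_left 416 cardE.2

theorem cardG_le : Finite G ∧ Nat.card G ≤ 1782 * (416 * (280 * 2160)) := by
  haveI : Finite (WP 6 W6) := cardF.1
  have h := ub_step hP1 hC1 SuzP.words SuzP.of_words 6 W6 (fun s => decide (s < 6))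
    (act_ge 6) okG (Cert.hsub_of subG)
  refine ⟨h.1, h.2.trans ?_⟩
  exact Nat.mul_le_mul_left 1782 cardF.2

instance finG : Finite G := cardG_le.1

/-! ### The lower bound and the base -/

theorem hA1 : TAct Suz1782.cert γ (Suz1782.cert.F γ H1) := tact_of hP1 hC1
theorem hA2 : TAct Suz22880.cert γ (Suz22880.cert.F γ H2) := tact_of hP2 hC2

theorem tr6 : chkTreeL Suz1782.cert 6 t6 [995] = true := by decide +kernel
theorem tr5 : chkTreeL Suz22880.cert 5 t5 [0] = true := by decide +kernel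
theorem tr4 : chkTreeL Suz22880.cert 4 t4 [1] = true := by decide +kernel
theorem tr3 : chkTreeL Suz22880.cert 3 t3 [2] = true := by decide +kernel
theorem tr2 : chkTreeL Suz22880.cert 2 t2 [3] = true := by decide +kernel
theorem tr1 : chkTreeL Suz22880.cert 1 t1 [4] = true := by decide +kernel

theorem fx6 : ∀ s < 5, Suz1782.cert.tn 995 s = 995 := by decide +kernel
theorem fx5 : ∀ s < 4, Suz22880.cert.tn 0 s = 0 := by decide +kernel
theorem fx4 : ∀ s < 3, Suz22880.cert.tn 1 s = 1 := by decide +kernel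
theorem fx3 : ∀ s < 2, Suz22880.cert.tn 2 s = 2 := by decide +kernel
theorem fx2 : ∀ s < 1, Suz22880.cert.tn 3 s = 3 := by decide +kernel
theorem fx1 : ∀ s < 0, Suz22880.cert.tn 4 s = 4 := by decide +kernel

theorem lb0 : 1 ≤ Nat.card (Sk γ 0) := Nat.card_pos
theorem lb1 : 2 * 1 ≤ Nat.card (Sk γ 1) :=
  lb_tree hA2 1 4 (by decide) (by decide) t1 tr1 0 (by decide) fx1 (by decide) lb0
theorem lb2 : 5 * (2 * 1) ≤ Nat.card (Sk γ 2) :=
  lb_tree hA2 2 3 (by decide) (by decide) t2 tr2 1 (by decide) fx2 (by decide) lb1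
theorem lb3 : 6 * (5 * (2 * 1)) ≤ Nat.card (Sk γ 3) :=
  lb_tree hA2 3 2 (by decide) (by decide) t3 tr3 2 (by decide) fx3 (by decide) lb2
theorem lb4 : 36 * (6 * (5 * (2 * 1))) ≤ Nat.card (Sk γ 4) :=
  lb_tree hA2 4 1 (by decide) (by decide) t4 tr4 3 (by decide) fx4 (by decide) lb3
theorem lb5 : 280 * (36 * (6 * (5 * (2 * 1)))) ≤ Nat.card (Sk γ 5) :=
  lb_tree hA2 5 0 (by decide) (by decide) t5 tr5 4 (by decide) fx5 (by decide) lb4
theorem lb6 : 416 * (280 * (36 * (6 * (5 * (2 * 1))))) ≤ Nat.card (Sk γ 6) :=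
  lb_tree hA1 6 995 (by decide) (by decide) t6 tr6 5 (by decide) fx6 (by decide) lb5

theorem H1_eq : H1 = Sk γ 6 :=
  subgp_eq_Sk hP1 6 (by decide) (by decide +kernel)

theorem cardG_eq : Nat.card G = 1782 * Nat.card (Sk γ 6) := by
  have h := Subgroup.index_mul_card H1
  rw [Cert.index_eq hP1 hC1, H1_eq] at h
  exact h.symm

/-- **The order.** -/
theorem suz_card : Nat.card G = 448345497600 := by
  have h1 := cardG_le.2
  have h2 := cardG_eq
  have h3 := lb6
  omega

theorem c6 : Nat.card (Sk γ 6) = 416 * (280 * (36 * (6 * (5 * (2 * 1))))) := by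
  have h1 := suz_card
  have h2 := cardG_eq
  omega

theorem ex6 : Nat.card (Sk γ 5) = 280 * (36 * (6 * (5 * (2 * 1)))) ∧
    ∀ g ∈ Sk γ 6, g • Suz1782.cert.F γ H1 995 = Suz1782.cert.F γ H1 995 → g ∈ Sk γ 5 :=
  ex_tree hA1 6 995 (by decide) (by decide) t6 tr6 5 (by decide) fx6 (n := 416)
    (by decide) lb5 (le_of_eq c6)
theorem ex5 : Nat.card (Sk γ 4) = 36 * (6 * (5 * (2 * 1))) ∧
    ∀ g ∈ Sk γ 5, g • Suz22880.cert.F γ H2 0 = Suz22880.cert.F γ H2 0 → g ∈ Sk γ 4 :=
  ex_tree hA2 5 0 (by decide) (by decide) t5 tr5 4 (by decide) fx5 (n := 280)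
    (by decide) lb4 (le_of_eq ex6.1)
theorem ex4 : Nat.card (Sk γ 3) = 6 * (5 * (2 * 1)) ∧
    ∀ g ∈ Sk γ 4, g • Suz22880.cert.F γ H2 1 = Suz22880.cert.F γ H2 1 → g ∈ Sk γ 3 :=
  ex_tree hA2 4 1 (by decide) (by decide) t4 tr4 3 (by decide) fx4 (n := 36)
    (by decide) lb3 (le_of_eq ex5.1)
theorem ex3 : Nat.card (Sk γ 2) = 5 * (2 * 1) ∧
    ∀ g ∈ Sk γ 3, g • Suz22880.cert.F γ H2 2 = Suz22880.cert.F γ H2 2 → g ∈ Sk γ 2 :=
  ex_tree hA2 3 2 (by decide) (by decide) t3 tr3 2 (by decide) fx3 (n := 6)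
    (by decide) lb2 (le_of_eq ex4.1)
theorem ex2 : Nat.card (Sk γ 1) = 2 * 1 ∧
    ∀ g ∈ Sk γ 2, g • Suz22880.cert.F γ H2 3 = Suz22880.cert.F γ H2 3 → g ∈ Sk γ 1 :=
  ex_tree hA2 2 3 (by decide) (by decide) t2 tr2 1 (by decide) fx2 (n := 5)
    (by decide) lb1 (le_of_eq ex3.1)
theorem ex1 : Nat.card (Sk γ 0) = 1 ∧
    ∀ g ∈ Sk γ 1, g • Suz22880.cert.F γ H2 4 = Suz22880.cert.F γ H2 4 → g ∈ Sk γ 0 :=
  ex_tree hA2 1 4 (by decide) (by decide) t1 tr1 0 (by decide) fx1 (n := 2)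
    (by decide) lb0 (le_of_eq ex2.1)

/-- **The base.** An element fixing the seven base points is trivial. -/
theorem base (g : G)
    (h1 : g • Suz1782.cert.F γ H1 0 = Suz1782.cert.F γ H1 0)
    (h2 : g • Suz1782.cert.F γ H1 995 = Suz1782.cert.F γ H1 995)
    (h3 : g • Suz22880.cert.F γ H2 0 = Suz22880.cert.F γ H2 0)
    (h4 : g • Suz22880.cert.F γ H2 1 = Suz22880.cert.F γ H2 1)
    (h5 : g • Suz22880.cert.F γ H2 2 = Suz22880.cert.F γ H2 2)
    (h6 : g • Suz22880.cert.F γ H2 3 = Suz22880.cert.F γ H2 3)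
    (h7 : g • Suz22880.cert.F γ H2 4 = Suz22880.cert.F γ H2 4) : g = 1 := by
  have m6 : g ∈ Sk γ 6 := by
    rw [← H1_eq]
    rw [Cert.F_zero hC1, MulAction.Quotient.smul_mk, smul_eq_mul, mul_one, QuotientGroup.eq,
      mul_one, inv_mem_iff] at h1
    exact h1
  have m5 := ex6.2 g m6 h2
  have m4 := ex5.2 g m5 h3
  have m3 := ex4.2 g m4 h4
  have m2 := ex3.2 g m3 h5
  have m1 := ex2.2 g m2 h6
  have m0 := ex1.2 g m1 h7
  rw [Sk_zero] at m0
  exact Subgroup.mem_bot.mp m0

/-- the word `w` fixes the seven base points -/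
noncomputable def chk7 (w : List ℕ) : Bool :=
  band (fixB Suz1782.cert w 0) (band (fixB Suz1782.cert w 995) (band (fixB Suz22880.cert w 0)
    (band (fixB Suz22880.cert w 1) (band (fixB Suz22880.cert w 2) (band (fixB Suz22880.cert w 3)
      (fixB Suz22880.cert w 4))))))

/-- a word fixing the base points is trivial -/
theorem word_one (w : List ℕ) (h : chk7 w = true) : (w.map γ).prod = 1 := by
  unfold chk7 at h
  simp only [band_iff] at h
  obtain ⟨a1, a2, a3, a4, a5, a6, a7⟩ := h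
  exact base _ (fix_of hA1 a1) (fix_of hA1 a2) (fix_of hA2 a3) (fix_of hA2 a4) (fix_of hA2 a5)
    (fix_of hA2 a6) (fix_of hA2 a7)

/-! ### Identities -/

theorem hγ : ∀ s, γ s * γ s = 1 := hP1.hγ

theorem γ_inv (s : ℕ) : (γ s)⁻¹ = γ s := inv_eq_of_mul_eq_one_left (hγ s)

/-- an element of order 3 -/
noncomputable def z : G := (zw.map γ).prod

theorem z_inv : (zw.reverse.map γ).prod = z⁻¹ := prod_reverse_inv hγ zw

theorem conj_z (s : ℕ) (h : chk7 ([s] ++ zw ++ [s] ++ zw.reverse) = true) :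
    γ s * z * (γ s)⁻¹ = z := by
  have h1 := word_one _ h
  rw [List.map_append, List.prod_append, List.map_append, List.prod_append, List.map_append,
    List.prod_append, z_inv] at h1
  simp only [List.map_cons, List.map_nil, List.prod_cons, List.prod_nil, mul_one] at h1
  have h2 : γ s * z * γ s * z⁻¹ = 1 := h1
  rw [γ_inv]
  calc γ s * z * γ s = γ s * z * γ s * z⁻¹ * z := by group
    _ = z := by rw [h2, one_mul]

theorem cz0 : γ 0 * z * (γ 0)⁻¹ = z := conj_z 0 (by decide +kernel)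
theorem cz1 : γ 1 * z * (γ 1)⁻¹ = z := conj_z 1 (by decide +kernel)
theorem cz2 : γ 2 * z * (γ 2)⁻¹ = z := conj_z 2 (by decide +kernel)
theorem cz5 : γ 5 * z * (γ 5)⁻¹ = z := conj_z 5 (by decide +kernel)
theorem cz6 : γ 6 * z * (γ 6)⁻¹ = z := conj_z 6 (by decide +kernel)

theorem cz3 : γ 3 * z * (γ 3)⁻¹ = z⁻¹ := by
  have h1 := word_one ([3] ++ zw ++ [3] ++ zw) (by decide +kernel)
  rw [List.map_append, List.prod_append, List.map_append, List.prod_append, List.map_append,
    List.prod_append] at h1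
  simp only [List.map_cons, List.map_nil, List.prod_cons, List.prod_nil, mul_one] at h1
  have h2 : γ 3 * z * γ 3 * z = 1 := h1
  rw [γ_inv]
  exact eq_inv_of_mul_eq_one_left h2

/-- `e` is a product of two conjugates of `z` -/
theorem id_e : γ 4 = (z * ((uw.map γ).prod * z * ((uw.map γ).prod)⁻¹))⁻¹ := by
  have h1 := word_one (zw ++ uw ++ zw ++ uw.reverse ++ [4]) (by decide +kernel)
  rw [List.map_append, List.prod_append, List.map_append, List.prod_append, List.map_append,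
    List.prod_append, List.map_append, List.prod_append, prod_reverse_inv hγ] at h1
  simp only [List.map_cons, List.map_nil, List.prod_cons, List.prod_nil, mul_one] at h1
  have h2 : z * (uw.map γ).prod * z * ((uw.map γ).prod)⁻¹ * γ 4 = 1 := h1
  have e : z * ((uw.map γ).prod * z * ((uw.map γ).prod)⁻¹) =
      z * (uw.map γ).prod * z * ((uw.map γ).prod)⁻¹ := by group
  rw [e]
  exact eq_inv_of_mul_eq_one_right h2

theorem id_d : γ 3 = ([4, 3].map γ).prod * γ 4 * (([4, 3].map γ).prod)⁻¹ :=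
  conj_of_word hγ [4, 3] 4 3 (word_one _ (by decide +kernel))

theorem id_b : γ 1 = ([0, 1, 0, 1].map γ).prod * γ 0 * (([0, 1, 0, 1].map γ).prod)⁻¹ :=
  conj_of_word hγ [0, 1, 0, 1] 0 1 (word_one _ (by decide +kernel))

theorem id_c : γ 2 = ([1, 2].map γ).prod * γ 1 * (([1, 2].map γ).prod)⁻¹ :=
  conj_of_word hγ [1, 2] 1 2 (word_one _ (by decide +kernel))

theorem id_f : γ 5 = ([1, 5].map γ).prod * γ 1 * (([1, 5].map γ).prod)⁻¹ :=
  conj_of_word hγ [1, 5] 1 5 (word_one _ (by decide +kernel))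

theorem id_g : γ 6 = ([1, 6].map γ).prod * γ 1 * (([1, 6].map γ).prod)⁻¹ :=
  conj_of_word hγ [1, 6] 1 6 (word_one _ (by decide +kernel))

theorem id_a : γ 0 * (γ 3 * γ 2) ^ 4 = 1 := by
  have h1 := word_one (0 :: (List.replicate 4 [3, 2]).flatten) (by decide +kernel)
  rw [List.map_cons, List.prod_cons, pair_word] at h1
  exact h1

/-! ### Maximal subgroups -/

theorem cnt1_0 : Suz1782.cert.cnt 0 = 1 := by decide +kernel

theorem max1 (M : Subgroup G) (hM : H1 ≤ M) : M = H1 ∨ M = ⊤ := by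
  refine Cert.maximal_of_rank3 hP1 hC1 hO1 (by decide) (by decide +kernel) cnt1_0 ?_ ?_ ?_ M hM
  · rw [cnt1_0, Cfsg.Agent.S1680.cnt_1, Cfsg.Agent.S1680.cnt_2]; decide
  · rw [Cfsg.Agent.S1680.cnt_1]; decide
  · rw [Cfsg.Agent.S1680.cnt_2]; decide

theorem cnt2_0 : Suz22880.cert.cnt 0 = 1 := by decide +kernel
theorem cnt2_1 : Suz22880.cert.cnt 1 = 280 := by decide +kernel
theorem cnt2_2 : Suz22880.cert.cnt 2 = 486 := by decide +kernel
theorem cnt2_3 : Suz22880.cert.cnt 3 = 8505 := by decide +kernel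
theorem cnt2_4 : Suz22880.cert.cnt 4 = 13608 := by decide +kernel

theorem max2 (M : Subgroup G) (hM : H2 ≤ M) : M = H2 ∨ M = ⊤ :=
  maximal_of_rank5 hP2 hC2 hO2 (by decide) (by decide +kernel) 280 486 8505 13608
    cnt2_0 cnt2_1 cnt2_2 cnt2_3 cnt2_4 (by decide) M hM

/-! ### Simplicity -/

theorem hz : ∀ h ∈ H2, h * z * h⁻¹ ∈ Subgroup.zpowers z := by
  have e := hP2.hH
  intro h hh
  rw [e] at hh
  refine conj_mem_zpowers_of_closure ?_ h hh
  rintro _ ⟨wid, h1, h2, rfl⟩
  have h1' : 33 ≤ wid := h1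
  have h2' : wid < 39 := h2
  interval_cases wid
  · rw [Cfsg.Agent.S1681.w_33]
    simp only [List.map_cons, List.map_nil, List.prod_cons, List.prod_nil, mul_one]
    exact ⟨hγ 0, Or.inl cz0⟩
  · rw [Cfsg.Agent.S1681.w_34]
    simp only [List.map_cons, List.map_nil, List.prod_cons, List.prod_nil, mul_one]
    exact ⟨hγ 1, Or.inl cz1⟩
  · rw [Cfsg.Agent.S1681.w_35]
    simp only [List.map_cons, List.map_nil, List.prod_cons, List.prod_nil, mul_one]
    exact ⟨hγ 2, Or.inl cz2⟩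
  · rw [Cfsg.Agent.S1681.w_36]
    simp only [List.map_cons, List.map_nil, List.prod_cons, List.prod_nil, mul_one]
    exact ⟨hγ 3, Or.inr cz3⟩
  · rw [Cfsg.Agent.S1681.w_37]
    simp only [List.map_cons, List.map_nil, List.prod_cons, List.prod_nil, mul_one]
    exact ⟨hγ 5, Or.inl cz5⟩
  · rw [Cfsg.Agent.S1681.w_38]
    simp only [List.map_cons, List.map_nil, List.prod_cons, List.prod_nil, mul_one]
    exact ⟨hγ 6, Or.inl cz6⟩

theorem gens_top (N : Subgroup G) (h : ∀ s < 7, γ s ∈ N) : N = ⊤ := by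
  rw [eq_top_iff, ← hP1.hgen, Subgroup.closure_le]
  rintro _ ⟨s, hs, rfl⟩
  exact h s hs

theorem ncl : Subgroup.normalClosure ({z} : Set G) = ⊤ := by
  have hzN : z ∈ Subgroup.normalClosure ({z} : Set G) :=
    Subgroup.subset_normalClosure (Set.mem_singleton z)
  have cj : ∀ x ∈ Subgroup.normalClosure ({z} : Set G), ∀ g : G,
      g * x * g⁻¹ ∈ Subgroup.normalClosure ({z} : Set G) :=
    fun x hx g => Subgroup.normalClosure_normal.conj_mem x hx g
  have m4 : γ 4 ∈ Subgroup.normalClosure ({z} : Set G) := by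
    rw [id_e]
    exact inv_mem (mul_mem hzN (cj z hzN _))
  have m3 : γ 3 ∈ Subgroup.normalClosure ({z} : Set G) := by
    rw [id_d]; exact cj _ m4 _
  have m0 : γ 0 ∈ Subgroup.normalClosure ({z} : Set G) := by
    have e : γ 0 = ((γ 3 * γ 2) ^ 4)⁻¹ := eq_inv_of_mul_eq_one_left id_a
    have e2 : (γ 3 * γ 2) ^ 4 = γ 3 * (γ 2 * γ 3 * (γ 2)⁻¹) * γ 3 * (γ 2 * γ 3 * (γ 2)⁻¹) := by
      rw [γ_inv]
      simp only [pow_succ, pow_zero, one_mul, mul_assoc]
    rw [e, e2]
    exact inv_mem (mul_mem (mul_mem (mul_mem m3 (cj _ m3 _)) m3) (cj _ m3 _))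
  have m1 : γ 1 ∈ Subgroup.normalClosure ({z} : Set G) := by
    rw [id_b]; exact cj _ m0 _
  have m2 : γ 2 ∈ Subgroup.normalClosure ({z} : Set G) := by
    rw [id_c]; exact cj _ m1 _
  have m5 : γ 5 ∈ Subgroup.normalClosure ({z} : Set G) := by
    rw [id_f]; exact cj _ m1 _
  have m6 : γ 6 ∈ Subgroup.normalClosure ({z} : Set G) := by
    rw [id_g]; exact cj _ m1 _
  apply gens_top
  intro s hs
  interval_cases s
  · exact m0
  · exact m1
  · exact m2
  · exact m3
  · exact m4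
  · exact m5
  · exact m6

theorem perf (N : Subgroup G) (hN : N.Normal) (hcomm : ∀ a b : G, a * b * a⁻¹ * b⁻¹ ∈ N) :
    N = ⊤ := by
  have := hN
  have hQ : ∀ x y : G ⧸ N, x * y = y * x := by
    intro x y
    refine QuotientGroup.induction_on x (fun a => ?_)
    refine QuotientGroup.induction_on y (fun b => ?_)
    have h := (QuotientGroup.eq_one_iff _).mpr (hcomm a b)
    rw [QuotientGroup.mk_mul, QuotientGroup.mk_mul, QuotientGroup.mk_mul, QuotientGroup.mk_inv,
      QuotientGroup.mk_inv] at h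
    calc (a : G ⧸ N) * (b : G ⧸ N)
        = (a : G ⧸ N) * b * (a : G ⧸ N)⁻¹ * (b : G ⧸ N)⁻¹ * (b * a) := by group
      _ = (b : G ⧸ N) * a := by rw [h, one_mul]
  letI : CommGroup (G ⧸ N) := { (inferInstance : Group (G ⧸ N)) with mul_comm := hQ }
  let π : G →* G ⧸ N := QuotientGroup.mk' N
  have hcj : ∀ (u x : G), π (u * x * u⁻¹) = π x := by
    intro u x
    rw [map_mul, map_mul, map_inv, mul_comm (π u), mul_inv_cancel_right]
  have sq : ∀ s, π (γ s) ^ 2 = 1 := by
    intro s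
    rw [pow_two, ← map_mul, hγ, map_one]
  have x0 : π (γ 0) = 1 := by
    have h := congrArg π id_a
    rw [map_mul, map_pow, map_mul, map_one, mul_pow] at h
    have e : ∀ s, π (γ s) ^ 4 = 1 := by
      intro s
      have : π (γ s) ^ 4 = (π (γ s) ^ 2) ^ 2 := by rw [← pow_mul]
      rw [this, sq, one_pow]
    rw [e, e, mul_one, mul_one] at h
    exact h
  have x1 : π (γ 1) = 1 := by rw [id_b, hcj, x0]
  have x2 : π (γ 2) = 1 := by rw [id_c, hcj, x1]
  have x5 : π (γ 5) = 1 := by rw [id_f, hcj, x1]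
  have x6 : π (γ 6) = 1 := by rw [id_g, hcj, x1]
  have xz : π z * π z = 1 := by
    have h := congrArg π cz3
    rw [hcj, map_inv] at h
    calc π z * π z = π z * (π z)⁻¹ := by rw [← h]
      _ = 1 := mul_inv_cancel _
  have x4 : π (γ 4) = 1 := by
    rw [id_e, map_inv, map_mul, hcj, xz, inv_one]
  have x3 : π (γ 3) = 1 := by rw [id_d, hcj, x4]
  apply gens_top
  intro s hs
  rw [← QuotientGroup.eq_one_iff]
  interval_cases s
  · exact x0
  · exact x1
  · exact x2
  · exact x3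
  · exact x4
  · exact x5
  · exact x6

theorem cardH2 : Nat.card H2 = 19595520 := by
  have h := Subgroup.index_mul_card H2
  rw [Cert.index_eq hP2 hC2, suz_card] at h
  have h' : 22880 * Nat.card H2 = 448345497600 := h
  omega

theorem core (N : Subgroup G) (hN : N.Normal) (hNH : N ≤ H2) : N = ⊥ := by
  have := hN
  have hNH1 : N ≤ H1 := by
    rcases max1 (N ⊔ H1) le_sup_right with h | h
    · rw [← h]; exact le_sup_left
    · exfalso
      have h1 := index_dvd_of_sup_top N H1 h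
      have h2 : Nat.card N ∣ Nat.card H2 := Subgroup.card_dvd_of_le hNH
      rw [Cert.index_eq hP1 hC1] at h1
      have h3 : (1782 : ℕ) ∣ 19595520 := by
        rw [← cardH2]; exact h1.trans h2
      exact absurd h3 (by decide)
  rw [eq_bot_iff]
  intro n hn
  rw [Subgroup.mem_bot]
  exact base n (normal_le_fix N H1 hNH1 hn _) (normal_le_fix N H1 hNH1 hn _)
    (normal_le_fix N H2 hNH hn _) (normal_le_fix N H2 hNH hn _) (normal_le_fix N H2 hNH hn _)
    (normal_le_fix N H2 hNH hn _) (normal_le_fix N H2 hNH hn _)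

/-- **Simplicity.** -/
theorem suz_simple : IsSimpleGroup G := by
  have : Nontrivial G := by
    rw [← Finite.one_lt_card_iff_nontrivial, suz_card]
    decide
  exact simple_of_iwasawa H2 max2 z hz ncl perf core

end Cfsg.Agent.Lib.Helper39.SuzOrd
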